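import Cfsg.Agent.H122.OrthIso
import Cfsg.Agent.H75.PlusFinal
import Cfsg.Agent.H76.MainFour
import Cfsg.Agent.ClassicalGeometry.OrthSemiForms

/-!
# The even-dimensional orthogonal groups in characteristic two: transfer

`equiv_plus`, `equiv_minus`: for the explicit quadratic forms `plusForm m F`, `minusForm (m - 1) F a b` in characteristic
two the group `E Q` generated by the Siegel transformations is isomorphic to `POmega`; the form has type `±`, and a proper
subgroup of `E Q` has index at least `q ^ (2 m - 2) + q ^ (2 m - 3) + q ^ (2 m - 4)`.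
-/

set_option autoImplicit false
set_option linter.unusedSectionVars false

namespace Cfsg.Agent.H908.IFE

open QuadraticMap Module Subgroup Cfsg Cfsg.Agent.LieClassical.OrthCore Cfsg.Agent.LieClassical.OrthTrans
  Cfsg.Agent.LieClassical.OrthForms Cfsg.Agent.H122.OrthTy

section general

variable {F V : Type*} [Field F] [AddCommGroup V] [Module F V] {Q : QuadraticForm F V}

theorem center_eq_bot [CharP F 2] (hG : Good Q) : Subgroup.center ↥(E Q) = ⊥ := by
  rw [eq_bot_iff]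
  intro z hz
  obtain ⟨c, hc⟩ := Cfsg.Agent.H75.OrthIdx.center_scalar hG hz
  obtain ⟨x, y, hxy⟩ := hG.exists_hyp
  have h1 : polar Q ((z : V ≃ₗ[F] V) x) ((z : V ≃ₗ[F] V) y) = polar Q x y :=
    polar_map (E_le_O z.2) x y
  rw [hc, hc, polar_smul_left, polar_smul_right, hxy.pair, smul_eq_mul, smul_eq_mul, mul_one] at h1
  have h2 : c = 1 := by
    have e2 : (2 : F) = 0 := CharP.cast_eq_zero F 2
    have e1 : (c - 1) * (c - 1) = 0 := by
      have : (c - 1) * (c - 1) = c * c - 2 * c + 1 := by ring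
      rw [this, h1, e2, zero_mul, sub_zero, one_add_one_eq_two, e2]
    exact sub_eq_zero.1 (mul_self_eq_zero.1 e1)
  rw [Subgroup.mem_bot]
  apply Subtype.ext
  ext v
  rw [hc, h2, one_smul]
  rfl

theorem index_transfer {b : ℕ} {c : ℕ}
    (h : ∀ H : Subgroup (V ≃ₗ[F] V), H ≤ E Q → ¬ E Q ≤ H → b ≤ c * H.relIndex (E Q)) :
    ∀ H : Subgroup ↥(E Q), H ≠ ⊤ → b ≤ c * H.index := by
  intro H hH
  have h2 : (H.map (E Q).subtype).subgroupOf (E Q) = H := by
    rw [Subgroup.subgroupOf, Subgroup.comap_map_eq_self_of_injective (Subgroup.subtype_injective _)]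
  have h3 := h (H.map (E Q).subtype) (by
    rintro _ ⟨x, -, rfl⟩
    exact x.2) (by
    intro hle
    apply hH
    rw [eq_top_iff]
    intro x _
    obtain ⟨y, hy, hyx⟩ := hle x.2
    have : y = x := Subtype.ext hyx
    rw [← this]; exact hy)
  rw [Subgroup.relIndex, h2] at h3
  exact h3

end general

section iso

variable {F ι : Type} [Field F] [Fintype F] [Fintype ι] [DecidableEq ι]

theorem nonempty_equiv [CharP F 2] {Q : QuadraticForm F (ι → F)} (hG : Good Q) :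
    Nonempty (↥(E Q) ≃* POmega F ⇑Q) := by
  have h := center_eq_bot hG
  refine ⟨((Cfsg.Agent.ClassicalGeometry.OrthSemiForms.pomegaEquiv hG).trans ?_).symm⟩
  exact (QuotientGroup.quotientMulEquivOfEq h).trans QuotientGroup.quotientBot

end iso

/-- the arithmetic of the minus type -/
theorem arith {q m : ℕ} (hq : 2 ≤ q) (hm : 4 ≤ m) :
    (q - 1) * (q ^ (2 * m - 2) + q ^ (2 * m - 3) + q ^ (2 * m - 4)) ≤ (q ^ m + 1) * (q ^ (m - 1) - 1) := by
  obtain ⟨k, rfl⟩ : ∃ k, m = k + 4 := ⟨m - 4, by omega⟩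
  obtain ⟨r, rfl⟩ : ∃ r, q = r + 2 := ⟨q - 2, by omega⟩
  set z := (r + 2) ^ (k + 1) with hz
  have hz1 : r + 2 ≤ z := by
    rw [hz]; exact Nat.le_self_pow (by omega) _
  have e1 : (r + 2) ^ (k + 4 - 1) = (r + 2) ^ 2 * z := by
    rw [hz, ← pow_add]; congr 1; omega
  have e2 : (r + 2) ^ (k + 4) = (r + 2) ^ 3 * z := by
    rw [hz, ← pow_add]; congr 1; omega
  have e3 : (r + 2) ^ (2 * (k + 4) - 2) = (r + 2) ^ 4 * (z * z) := by
    rw [hz, ← pow_add, ← pow_add]; congr 1; omega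
  have e4 : (r + 2) ^ (2 * (k + 4) - 3) = (r + 2) ^ 3 * (z * z) := by
    rw [hz, ← pow_add, ← pow_add]; congr 1; omega
  have e5 : (r + 2) ^ (2 * (k + 4) - 4) = (r + 2) ^ 2 * (z * z) := by
    rw [hz, ← pow_add, ← pow_add]; congr 1; omega
  rw [e1, e2, e3, e4, e5]
  have hpos : 1 ≤ (r + 2) ^ 2 * z := Nat.succ_le_of_lt (by positivity)
  have h1 : r + 2 - 1 = r + 1 := by omega
  rw [h1]
  zify [hpos]
  have hz' : (r : ℤ) + 2 ≤ z := by exact_mod_cast hz1
  have hr : (0 : ℤ) ≤ r := by positivity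
  have hz0 : (0 : ℤ) ≤ z := by positivity
  have key : ((r : ℤ) + 2) ^ 3 * z * (r + 2) ^ 2 * z - ((r : ℤ) + 2) ^ 2 * (z * z)
      = (r + 1) * ((r + 2) ^ 4 * (z * z) + (r + 2) ^ 3 * (z * z) + (r + 2) ^ 2 * (z * z)) := by ring
  rw [← key]
  have h2 : ((r : ℤ) + 2) ^ 2 * z * (r + 2) ≤ (r + 2) ^ 2 * z * z :=
    mul_le_mul_of_nonneg_left hz' (by positivity)
  have h3 : (1 : ℤ) ≤ (r + 2) ^ 2 * z := by exact_mod_cast hpos
  nlinarith [h2, h3]

theorem arith_plus {q m : ℕ} (hq : 2 ≤ q) (hm : 4 ≤ m) :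
    (q - 1) * (q ^ (2 * m - 2) + q ^ (2 * m - 3) + q ^ (2 * m - 4)) ≤ (q ^ m - 1) * (q ^ (m - 1) + 1) := by
  refine (arith hq hm).trans ?_
  have h1 : q ^ (m - 1) ≤ q ^ m := Nat.pow_le_pow_right (by omega) (by omega)
  have h2 : 1 ≤ q ^ (m - 1) := Nat.one_le_pow _ _ (by omega)
  generalize q ^ (m - 1) = x at *
  generalize q ^ m = y at *
  obtain ⟨x', rfl⟩ : ∃ x', x = x' + 1 := ⟨x - 1, by omega⟩
  obtain ⟨y', rfl⟩ : ∃ y', y = y' + 1 := ⟨y - 1, by omega⟩
  rw [Nat.add_sub_cancel, Nat.add_sub_cancel]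
  nlinarith

/-- EV8. transfer, plus type -/
theorem equiv_plus {F : Type} [Field F] [Fintype F] [CharP F 2] {m : ℕ} (hm : 4 ≤ m) :
    Good (plusForm m F) ∧ Ty 1 m (plusForm m F) ∧ Nonempty (↥(E (plusForm m F)) ≃* POmega F (quadFormPlus m F)) ∧
    (4 ≤ Fintype.card F → ∀ H : Subgroup ↥(E (plusForm m F)), H ≠ ⊤ →
      Fintype.card F ^ (2 * m - 2) + Fintype.card F ^ (2 * m - 3) + Fintype.card F ^ (2 * m - 4) ≤ H.index) := by
  classical
  have hG := Cfsg.Agent.H75.OrthIdx.good_plusForm (F := F) m hm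
  have hC := Cfsg.Agent.H75.OrthIdx.plus_count (F := F) m hm
  refine ⟨hG, Cfsg.Agent.H122.OrthIso.ty_plus m, ?_, ?_⟩
  · rw [← coe_plusForm]
    exact nonempty_equiv hG
  · intro h4 H hH
    rw [← Nat.card_eq_fintype_card] at h4
    have h1 := index_transfer (fun K hK hne => Cfsg.Agent.H75.OrthIdx.plus_lower hG hC h4 hK hne) H hH
    rw [Nat.card_eq_fintype_card] at h1 h4
    exact Nat.le_of_mul_le_mul_left ((arith_plus (by omega) hm).trans h1) (by omega)

/-- EV8. transfer, minus type -/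
theorem equiv_minus {F : Type} [Field F] [Fintype F] [CharP F 2] {m : ℕ} (hm : 4 ≤ m) (a b : F)
    (hz : ∀ z₁ z₂ : F, z₁ ^ 2 + a * z₁ * z₂ + b * z₂ ^ 2 = 0 → z₁ = 0 ∧ z₂ = 0) :
    Good (minusForm (m - 1) F a b) ∧ Ty (-1) m (minusForm (m - 1) F a b) ∧
    Nonempty (↥(E (minusForm (m - 1) F a b)) ≃* POmega F (quadFormMinus (m - 1) F a b)) ∧
    (4 ≤ Fintype.card F → ∀ H : Subgroup ↥(E (minusForm (m - 1) F a b)), H ≠ ⊤ →
      Fintype.card F ^ (2 * m - 2) + Fintype.card F ^ (2 * m - 3) + Fintype.card F ^ (2 * m - 4) ≤ H.index) := by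
  classical
  have hG := Cfsg.Agent.H76.Num.good_minusForm hz (m - 1) (by omega)
  have hC := Cfsg.Agent.H76.Num.minusCount hz (m - 1) (by omega)
  have hT := Cfsg.Agent.H122.OrthIso.ty_minus a b hz (m - 1)
  rw [Nat.sub_add_cancel (by omega : 1 ≤ m)] at hC hT
  refine ⟨hG, hT, ?_, ?_⟩
  · rw [← coe_minusForm]
    exact nonempty_equiv hG
  · intro h4 H hH
    have h1 := index_transfer (fun K hK hne => Cfsg.Agent.H76.MainFour.lower hG hC hm hK hne) H hH
    rw [Nat.card_eq_fintype_card, Cfsg.Agent.H76.Lower.bd] at h1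
    exact Nat.le_of_mul_le_mul_left ((arith (by omega) hm).trans h1) (by omega)

end Cfsg.Agent.H908.IFE
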